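import Cfsg.Prelude.Def_HallClasses
import Cfsg.Agent.H33.Base
import Cfsg.Agent.SigF.Trans
import Mathlib.GroupTheory.SchurZassenhaus

set_option autoImplicit false

/-! `D_π` and `π`-homogeneous finite groups: the Hall subgroup controls fusion (helper29). -/

namespace Cfsg.Agent.H29.DPi

open Subgroup Cfsg.Agent.H33

variable {G : Type*} [Group G]

/-- `H` is a `π`-subgroup and every `π`-subgroup is conjugate into it. -/
structure DH (π : Set ℕ) (H : Subgroup G) : Prop where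
  pi : Cfsg.IsPiSubgroup π H
  emb : ∀ Y : Subgroup G, Cfsg.IsPiSubgroup π Y → ∃ g : G, cj g Y ≤ H

/-- element form of `π`-homogeneity -/
def HomE (π : Set ℕ) (G : Type*) [Group G] : Prop :=
  ∀ K : Subgroup G, Cfsg.IsPiSubgroup π K → ∀ q : ℕ, q.Prime → q ∉ π →
    ∀ x ∈ normalizer (K : Set G), (∃ k : ℕ, orderOf x = q ^ k) → x ∈ centralizer (K : Set G)

theorem pi_of_dvd {π : Set ℕ} {A B : Subgroup G} (hB : Cfsg.IsPiSubgroup π B) (h : Nat.card A ∣ Nat.card B) :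
    Cfsg.IsPiSubgroup π A := fun p hp hd => hB p hp (hd.trans h)

theorem pi_of_le {π : Set ℕ} {A B : Subgroup G} (hB : Cfsg.IsPiSubgroup π B) (h : A ≤ B) :
    Cfsg.IsPiSubgroup π A := pi_of_dvd hB (card_dvd_of_le h)

theorem pi_of_pGroup {π : Set ℕ} [Finite G] {p : ℕ} [hp : Fact p.Prime] (hpπ : p ∈ π) {A : Subgroup G} (hA : IsPGroup p A) :
    Cfsg.IsPiSubgroup π A := by
  intro q hq hd
  obtain ⟨k, hk⟩ := IsPGroup.iff_card.mp hA
  rw [hk] at hd
  have := (Nat.prime_dvd_prime_iff_eq hq hp.out).mp (hq.dvd_of_dvd_pow hd)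
  rwa [this]

theorem pi_sup {π : Set ℕ} [Finite G] {A B : Subgroup G} (hA : Cfsg.IsPiSubgroup π A) (hB : Cfsg.IsPiSubgroup π B)
    (h : B ≤ normalizer (A : Set G)) : Cfsg.IsPiSubgroup π (A ⊔ B : Subgroup G) := by
  intro q hq hd
  rcases (hq.dvd_mul).mp (hd.trans (SigF.card_sup_dvd h)) with h1 | h1
  · exact hA q hq h1
  · exact hB q hq h1

/-- a `π`-subgroup supplementing the centralizer in the normalizer -/
theorem exists_supp [Finite G] {π : Set ℕ} (hhom : HomE π G) (Q : Subgroup G) (hQ : Cfsg.IsPiSubgroup π Q) :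
    ∃ L : Subgroup G, L ≤ normalizer (Q : Set G) ∧ Cfsg.IsPiSubgroup π L ∧
      ∀ n ∈ normalizer (Q : Set G), ∃ c ∈ centralizer (Q : Set G), ∃ l ∈ L, n = c * l := by
  obtain ⟨L, ⟨hLN, hL⟩, hmin⟩ := exists_min_nat
    {L : Subgroup G | L ≤ normalizer (Q : Set G) ∧
      ∀ n ∈ normalizer (Q : Set G), ∃ c ∈ centralizer (Q : Set G), ∃ l ∈ L, n = c * l} (fun L => Nat.card L)
    ⟨normalizer (Q : Set G), le_rfl, fun n hn => ⟨1, one_mem _, n, hn, by simp⟩⟩
  refine ⟨L, hLN, ?_, hL⟩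
  intro r hr hrL
  by_contra hrπ
  haveI : Fact r.Prime := ⟨hr⟩
  obtain ⟨R⟩ : Nonempty (Sylow r L) := inferInstance
  -- `R` centralises `Q`
  have hRC : ∀ x ∈ (R : Subgroup L), (x : G) ∈ centralizer (Q : Set G) := by
    intro x hx
    refine hhom Q hQ r hr hrπ x (hLN x.2) ?_
    obtain ⟨k, hk⟩ := (IsPGroup.iff_orderOf.mp R.2) ⟨x, hx⟩
    refine ⟨k, ?_⟩
    rw [← hk, Subgroup.orderOf_coe, ← Subgroup.orderOf_mk x hx]
  have hCn : ((centralizer (Q : Set G)).subgroupOf L).Normal := by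
    constructor
    intro c hc x
    rw [mem_subgroupOf] at hc ⊢
    have hx := hLN x.2
    rw [mem_centralizer_iff] at hc ⊢
    intro q hq
    have h1 : (x : G)⁻¹ * q * x ∈ Q := by
      have := (mem_normalizer_iff.mp (inv_mem hx) q).mp hq
      simpa using this
    have h2 := hc _ h1
    show q * ((x : G) * c * (x : G)⁻¹) = (x : G) * c * (x : G)⁻¹ * q
    have h3 : q * ((x : G) * c * (x : G)⁻¹) = x * (((x : G)⁻¹ * q * x) * c) * (x : G)⁻¹ := by group
    rw [h3, h2]; group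
  have hRle : (R : Subgroup L) ≤ (centralizer (Q : Set G)).subgroupOf L := fun x hx => hRC x hx
  -- Frattini
  have hF := R.normalizer_sup_eq_top' hRle
  have hsup : ∀ (M : Subgroup L), M ⊔ (centralizer (Q : Set G)).subgroupOf L = ⊤ → Nat.card L ≤ Nat.card M := by
    intro M hM
    have h1 := hmin (M.map L.subtype) ⟨(map_subtype_le M).trans hLN, ?_⟩
    · rwa [card_map_of_injective L.subtype_injective] at h1
    intro n hn
    obtain ⟨c, hc, l, hl, rfl⟩ := hL n hn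
    have h2 : (⟨l, hl⟩ : L) ∈ (centralizer (Q : Set G)).subgroupOf L ⊔ M := by
      rw [sup_comm, hM]; exact mem_top _
    rw [mem_sup_left_norm (by rw [normalizer_eq_top_iff.mpr hCn]; exact le_top)] at h2
    obtain ⟨a, ha, b, hb, hab⟩ := h2
    refine ⟨c * a, mul_mem hc (mem_subgroupOf.mp ha), b, ⟨b, hb, rfl⟩, ?_⟩
    have h3 : l = (a : G) * b := congrArg Subtype.val hab
    rw [h3, mul_assoc]
  have hRn : (R : Subgroup L).Normal := by
    rw [← normalizer_eq_top_iff]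
    exact eq_top_of_le_card _ (hsup _ hF)
  have hcop : Nat.Coprime (Nat.card (R : Subgroup L)) (R : Subgroup L).index := by
    obtain ⟨k, hk⟩ := IsPGroup.iff_card.mp R.2
    rw [hk]
    exact Nat.Coprime.pow_left _ ((Nat.Prime.coprime_iff_not_dvd hr).mpr R.not_dvd_index)
  obtain ⟨M, hM⟩ := exists_right_complement'_of_coprime hcop
  have h4 := hsup M (by
    rw [eq_top_iff, ← hM.sup_eq_top, sup_comm]
    exact sup_le_sup_left hRle _)
  have h5 := hM.card_mul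
  have h6 : 1 < Nat.card (R : Subgroup L) := by
    have : r ∣ Nat.card (R : Subgroup L) := R.dvd_card_of_dvd_card hrL
    exact lt_of_lt_of_le hr.one_lt (Nat.le_of_dvd Nat.card_pos this)
  have h7 : 0 < Nat.card M := Nat.card_pos
  rw [← h5] at h4
  nlinarith

theorem fusion_p [Finite G] {π : Set ℕ} {H : Subgroup G} (hD : DH π H) (hhom : HomE π G) {p : ℕ} [hp : Fact p.Prime]
    (hpπ : p ∈ π) : ∀ (n : ℕ) (Q : Subgroup G), Nat.card G - Nat.card Q = n → Q ≤ H → IsPGroup p Q →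
      ∀ g : G, cj g Q ≤ H → ∃ h ∈ H, ∀ q ∈ Q, g * q * g⁻¹ = h * q * h⁻¹ := by
  intro n
  induction n using Nat.strong_induction_on with
  | _ n ih =>
  intro Q hn hQH hQp g hgQ
  have ih' : ∀ R : Subgroup G, Nat.card Q < Nat.card R → R ≤ H → IsPGroup p R → ∀ g : G, cj g R ≤ H →
      ∃ h ∈ H, ∀ q ∈ R, g * q * g⁻¹ = h * q * h⁻¹ := by
    intro R hR
    refine ih _ ?_ R rfl
    have : Nat.card R ≤ Nat.card G := Subgroup.card_le_card_group R
    omega
  -- choose the pair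
  obtain ⟨⟨x0, T0⟩, ⟨hx0, hT0H, hT0N, hT0p⟩, hmax⟩ := exists_max_nat
    {z : G × Subgroup G | cj z.1 Q ≤ H ∧ z.2 ≤ H ∧ z.2 ≤ normalizer ((cj z.1 Q : Subgroup G) : Set G) ∧ IsPGroup p z.2}
    (fun z => Nat.card z.2) ⟨(1, Q), by rw [cj_one]; exact hQH, hQH, by rw [cj_one]; exact le_normalizer, hQp⟩
  simp only at hx0 hT0H hT0N hT0p hmax
  have hmax' : ∀ (x : G) (T : Subgroup G), cj x Q ≤ H → T ≤ H → T ≤ normalizer ((cj x Q : Subgroup G) : Set G) →
      IsPGroup p T → Nat.card T ≤ Nat.card T0 := fun x T h1 h2 h3 h4 => hmax (x, T) ⟨h1, h2, h3, h4⟩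
  set Qs := cj x0 Q with hQs
  have hQsp : IsPGroup p Qs := isPGroup_cj hQp
  -- T0 is Sylow in the normalizer of Qs
  obtain ⟨PN, hPN⟩ := IsSyl.exists (p := p) (normalizer (Qs : Set G))
  have hT0S : IsSyl p T0 (normalizer (Qs : Set G)) := by
    refine hPN.of_card_le hT0N hT0p ?_
    obtain ⟨m, hm, hmQ⟩ := hPN.conj_le le_normalizer hQsp
    have h1 : Qs ≤ PN := by rwa [mem_norm_iff.mp hm] at hmQ
    obtain ⟨z, hz⟩ := hD.emb PN (pi_of_pGroup hpπ hPN.2.1)
    have h2 : cj (z * x0) Q ≤ H := by rw [cj_mul]; exact (cj_mono h1).trans hz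
    have h3 := hmax' (z * x0) (cj z PN) h2 hz (by
      rw [cj_mul, ← hQs, ← cj_normalizer]; exact cj_mono hPN.1) (isPGroup_cj hPN.2.1)
    rwa [card_cj] at h3
  -- all conjugates of Q in H are H-conjugate to Qs
  have hB : ∀ y : G, cj y Q ≤ H → ∃ h ∈ H, cj h (cj y Q) = Qs := by
    intro y hy
    obtain ⟨P', hQP', hP'⟩ := IsSyl.exists_of_le (p := p) hy (isPGroup_cj hQp)
    rcases hQP'.eq_or_lt with he | hlt
    · have h1 : IsSyl p Qs H := by
        refine hP'.of_card_le hx0 hQsp ?_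
        rw [← he, card_cj, hQs, card_cj]
      obtain ⟨m, hm, hmQ⟩ := h1.conj_eq (he ▸ hP')
      exact ⟨m, hm, hmQ⟩
    · have hlt2 := lt_inf_normalizer hP'.2.1 hlt
      set R' := P' ⊓ normalizer ((cj y Q : Subgroup G) : Set G) with hR'
      have hR'p : IsPGroup p R' := isPGroup_sub hP'.2.1 inf_le_left
      have hxe : cj (x0 * y⁻¹) (cj y Q) = Qs := by rw [← cj_mul, inv_mul_cancel_right]
      have h1 : cj (x0 * y⁻¹) R' ≤ normalizer (Qs : Set G) := by
        rw [← hxe, ← cj_normalizer]; exact cj_mono inf_le_right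
      obtain ⟨m, hm, hmR⟩ := hT0S.conj_le h1 (isPGroup_cj hR'p)
      rw [← cj_mul] at hmR
      obtain ⟨h, hh, hhR⟩ := ih' R' (by
        rw [← card_cj y Q]
        exact Set.ncard_lt_ncard (s := ((cj y Q : Subgroup G) : Set G)) (t := (R' : Set G)) hlt2) (inf_le_left.trans hP'.1) hR'p
        (m * (x0 * y⁻¹)) (hmR.trans hT0H)
      refine ⟨h, hh, ?_⟩
      have h2 : cj h (cj y Q) = cj (m * (x0 * y⁻¹)) (cj y Q) := by
        apply le_antisymm
        · rw [cj_le_iff]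
          intro x hx
          rw [← hhR x (hlt2.le hx)]
          exact conj_mem_cj hx
        · rw [cj_le_iff]
          intro x hx
          rw [hhR x (hlt2.le hx)]
          exact conj_mem_cj hx
      rw [h2, cj_mul m, hxe, mem_norm_iff.mp hm]
  -- normalizer factorization
  have hC : ∀ n ∈ normalizer (Qs : Set G), ∃ c ∈ centralizer (Qs : Set G), ∃ l ∈ H, l ∈ normalizer (Qs : Set G) ∧ n = c * l := by
    intro n hn
    obtain ⟨L, hLN, hLpi, hL⟩ := exists_supp hhom Qs (pi_of_pGroup hpπ hQsp)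
    obtain ⟨a, ha⟩ := hD.emb (Qs ⊔ L) (pi_sup (pi_of_pGroup hpπ hQsp) hLpi hLN)
    rw [cj_sup] at ha
    obtain ⟨h', hh', hh'Q⟩ := hB (a * x0) (by rw [cj_mul]; exact le_sup_left.trans ha)
    rw [cj_mul, ← cj_mul h', ← hQs] at hh'Q
    have hb := mem_norm_iff.mpr hh'Q
    set b := h' * a with hb'
    have hbL : ∀ l ∈ L, b * l * b⁻¹ ∈ H := by
      intro l hl
      have h1 : a * l * a⁻¹ ∈ H := (le_sup_right.trans ha) (conj_mem_cj hl)
      have h2 : b * l * b⁻¹ = h' * (a * l * a⁻¹) * h'⁻¹ := by rw [hb']; group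
      rw [h2]; exact mul_mem (mul_mem hh' h1) (inv_mem hh')
    obtain ⟨c, hc, l, hl, hcl⟩ := hL (b⁻¹ * n * b) (mul_mem (mul_mem (inv_mem hb) hn) hb)
    refine ⟨b * c * b⁻¹, ?_, b * l * b⁻¹, hbL l hl, ?_, ?_⟩
    · have h1 : b * c * b⁻¹ ∈ cj b (centralizer (Qs : Set G)) := conj_mem_cj hc
      rwa [cj_centralizer, hh'Q] at h1
    · exact mul_mem (mul_mem hb (hLN hl)) (inv_mem hb)
    · have h1 : n = b * (b⁻¹ * n * b) * b⁻¹ := by group
      rw [h1, hcl]; group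
  -- final
  obtain ⟨h1, hh1, hh1Q⟩ := hB 1 (by rw [cj_one]; exact hQH)
  rw [cj_one] at hh1Q
  obtain ⟨h2, hh2, hh2Q⟩ := hB g hgQ
  have hnN : h2 * g * h1⁻¹ ∈ normalizer (Qs : Set G) := by
    rw [mem_norm_iff, ← hh1Q, ← cj_mul, inv_mul_cancel_right, cj_mul, hh2Q, hh1Q]
  obtain ⟨c, hc, l, hlH, hlN, hcl⟩ := hC _ hnN
  refine ⟨h2⁻¹ * l * h1, mul_mem (mul_mem (inv_mem hh2) hlH) hh1, ?_⟩
  intro q hq
  have e1 : h1 * q * h1⁻¹ ∈ Qs := by rw [← hh1Q]; exact conj_mem_cj hq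
  have e2 : l * (h1 * q * h1⁻¹) * l⁻¹ ∈ Qs := (mem_normalizer_iff.mp hlN _).mp e1
  have e3 : c * (l * (h1 * q * h1⁻¹) * l⁻¹) * c⁻¹ = l * (h1 * q * h1⁻¹) * l⁻¹ := by
    have := mem_centralizer_iff.mp hc _ e2
    rw [← this]; group
  have e4 : g = h2⁻¹ * (c * l) * h1 := by rw [← hcl]; group
  calc g * q * g⁻¹ = h2⁻¹ * (c * (l * (h1 * q * h1⁻¹) * l⁻¹) * c⁻¹) * h2 := by rw [e4]; group
    _ = h2⁻¹ * (l * (h1 * q * h1⁻¹) * l⁻¹) * h2 := by rw [e3]
    _ = h2⁻¹ * l * h1 * q * (h2⁻¹ * l * h1)⁻¹ := by group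

/-- homogeneity passes to subgroups -/
theorem homE_sub {π : Set ℕ} (hhom : HomE π G) (C : Subgroup G) : HomE π C := by
  intro K hK q hq hqπ x hx ⟨k, hk⟩
  have hK' : Cfsg.IsPiSubgroup π (K.map C.subtype) := by
    intro r hr hd
    rw [card_map_of_injective C.subtype_injective] at hd
    exact hK r hr hd
  have h1 : (x : G) ∈ normalizer ((K.map C.subtype : Subgroup G) : Set G) := by
    rw [mem_normalizer_iff] at hx ⊢
    intro y
    constructor
    · rintro ⟨z, hz, rfl⟩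
      exact ⟨_, (hx z).mp hz, by simp⟩
    · rintro ⟨z, hz, hzy⟩
      refine ⟨x⁻¹ * z * x, ?_, ?_⟩
      · show x⁻¹ * z * x ∈ K
        rw [hx]; simpa [mul_assoc] using hz
      · have : (z : G) = x * y * (x : G)⁻¹ := hzy
        simp only [coe_subtype, coe_mul, coe_inv, this]
        group
  have h2 := hhom _ hK' q hq hqπ x h1 ⟨k, by rw [Subgroup.orderOf_coe]; exact hk⟩
  rw [mem_centralizer_iff] at h2 ⊢
  intro y hy
  exact Subtype.ext (h2 y ⟨y, hy, rfl⟩)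

/-- the centralizer of a `p`-element of `H`, `p ∈ π` -/
theorem dh_centralizer [Finite G] {π : Set ℕ} {H : Subgroup G} (hD : DH π H) (hhom : HomE π G) {p : ℕ}
    [hp : Fact p.Prime] (hpπ : p ∈ π) {u : G} (huH : u ∈ H) (hu : ∃ k : ℕ, orderOf u = p ^ k) :
    DH π (H.subgroupOf (centralizer ({u} : Set G))) := by
  set C := centralizer ({u} : Set G) with hC
  refine ⟨?_, ?_⟩
  · intro q hq hd
    refine hD.pi q hq (hd.trans ?_)
    rw [← card_map_of_injective C.subtype_injective, subgroupOf_map_subtype]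
    exact card_dvd_of_le inf_le_left
  · intro Y hY
    set Y' := Y.map C.subtype with hY'
    have hY'p : Cfsg.IsPiSubgroup π Y' := by
      intro q hq hd
      rw [hY', card_map_of_injective C.subtype_injective] at hd
      exact hY q hq hd
    have hU : IsPGroup p (zpowers u) := by
      obtain ⟨k, hk⟩ := hu
      exact IsPGroup.of_card (by rw [Nat.card_zpowers, hk])
    have hYC : ∀ y ∈ Y', y * u = u * y := by
      rintro _ ⟨y, hy, rfl⟩
      exact (mem_centralizer_singleton_iff.mp y.2)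
    have hYn : Y' ≤ normalizer ((zpowers u : Subgroup G) : Set G) := by
      intro y hy
      refine mem_norm_of_le ?_
      rw [cj_le_iff]
      rintro _ ⟨j, rfl⟩
      rw [← conj_zpow, hYC y hy, mul_inv_cancel_right]
      exact zpow_mem (mem_zpowers u) _
    obtain ⟨a, ha⟩ := hD.emb (zpowers u ⊔ Y') (pi_sup (pi_of_pGroup hpπ hU) hY'p hYn)
    have hau : cj a (zpowers u) ≤ H := (cj_mono le_sup_left).trans ha
    obtain ⟨h, hh, hhu⟩ := fusion_p hD hhom hpπ _ (zpowers u) rfl (by rwa [zpowers_le]) hU a hau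
    have h1 := hhu u (mem_zpowers u)
    -- b = h⁻¹ a centralizes u
    have hb : h⁻¹ * a ∈ C := by
      rw [hC, mem_centralizer_singleton_iff]
      calc h⁻¹ * a * u = h⁻¹ * (a * u * a⁻¹) * a := by group
        _ = u * (h⁻¹ * a) := by rw [h1]; group
    refine ⟨⟨_, hb⟩, ?_⟩
    rw [cj_le_iff]
    intro y hy
    rw [mem_subgroupOf]
    have h2 : a * y * a⁻¹ ∈ H := ha (conj_mem_cj (mem_sup_right ⟨y, hy, rfl⟩))
    have h3 : h⁻¹ * (a * y * a⁻¹) * h ∈ H := mul_mem (mul_mem (inv_mem hh) h2) hh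
    have h4 : (((⟨h⁻¹ * a, hb⟩ : C) * y * (⟨h⁻¹ * a, hb⟩ : C)⁻¹ : C) : G) = h⁻¹ * (a * y * a⁻¹) * h := by
      simp only [coe_mul, coe_inv]; group
    rw [h4]; exact h3

theorem fusion_el : ∀ (n : ℕ) (G : Type*) [Group G] [Finite G] (π : Set ℕ) (H : Subgroup G), DH π H → HomE π G →
    ∀ x ∈ H, orderOf x = n → ∀ y ∈ H, IsConj x y → ∃ h ∈ H, h * x * h⁻¹ = y := by
  intro n
  induction n using Nat.strong_induction_on with
  | _ n ih =>
  intro G _ _ π H hD hhom x hx hn y hy hxy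
  obtain ⟨g, hg⟩ := isConj_iff.mp hxy
  rcases eq_or_ne n 1 with h1 | h1
  · rw [h1, orderOf_eq_one_iff] at hn
    subst hn
    refine ⟨1, one_mem _, ?_⟩
    rw [← hg]; group
  obtain ⟨p, hp, hpn⟩ := Nat.exists_prime_and_dvd h1
  haveI : Fact p.Prime := ⟨hp⟩
  have hpπ : p ∈ π := hD.pi p hp (by
    refine hpn.trans ?_
    rw [← hn, ← Subgroup.orderOf_mk x hx]
    exact orderOf_dvd_natCard _)
  have hn0 : n ≠ 0 := by rw [← hn]; exact (orderOf_pos x).ne'
  -- n = p^k * m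
  obtain ⟨k, m, hpm, hnk⟩ := Nat.exists_eq_pow_mul_and_not_dvd hn0 p hp.ne_one
  have hk : k ≠ 0 := by
    rintro rfl
    rw [pow_zero, one_mul] at hnk
    exact hpm (hnk ▸ hpn)
  have hcop : Nat.Coprime (p ^ k) m := Nat.Coprime.pow_left _ ((Nat.Prime.coprime_iff_not_dvd hp).mpr hpm)
  have hm0 : 0 < m := Nat.pos_of_ne_zero (by rintro rfl; simp at hnk; exact hn0 hnk)
  obtain ⟨a, ha1, ha2⟩ := Nat.chineseRemainder hcop 1 0
  obtain ⟨b, hb1, hb2⟩ := Nat.chineseRemainder hcop 0 1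
  have hab : a + b ≡ 1 [MOD n] := by
    rw [hnk]
    refine (Nat.modEq_and_modEq_iff_modEq_mul hcop).mp ⟨?_, ?_⟩
    · simpa using ha1.add hb1
    · simpa using ha2.add hb2
  have hxab : ∀ z : G, orderOf z = n → z ^ a * z ^ b = z := by
    intro z hz
    rw [← pow_add]
    conv_rhs => rw [← pow_one z]
    rw [pow_eq_pow_iff_modEq, hz]; exact hab
  have hyn : orderOf y = n := by
    rw [← hg, ← hn]
    exact (SemiconjBy.orderOf_eq (x := x) (y := g * x * g⁻¹) g (by simp [SemiconjBy])).symm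
  have hma : m ∣ a := (Nat.modEq_zero_iff_dvd).mp ha2
  have hpb : p ^ k ∣ b := (Nat.modEq_zero_iff_dvd).mp hb1
  have hxa : ∃ j : ℕ, orderOf (x ^ a) = p ^ j := by
    have : orderOf (x ^ a) ∣ p ^ k := by
      rw [orderOf_dvd_iff_pow_eq_one, ← pow_mul, ← orderOf_dvd_iff_pow_eq_one, hn, hnk, mul_comm]
      exact mul_dvd_mul_right hma _
    obtain ⟨j, -, hj⟩ := (Nat.dvd_prime_pow hp).mp this
    exact ⟨j, hj⟩
  have hxb : orderOf (x ^ b) ∣ m := by
    rw [orderOf_dvd_iff_pow_eq_one, ← pow_mul, ← orderOf_dvd_iff_pow_eq_one, hn, hnk]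
    exact mul_dvd_mul_right hpb _
  have hmn : m < n := by
    rw [hnk]
    have : 1 < p ^ k := Nat.one_lt_pow hk hp.one_lt
    nlinarith
  -- move the p-parts together
  have hxaH : x ^ a ∈ H := pow_mem hx _
  have hU : IsPGroup p (zpowers (x ^ a)) := by
    obtain ⟨j, hj⟩ := hxa
    exact IsPGroup.of_card (by rw [Nat.card_zpowers, hj])
  have hgx : ∀ j : ℕ, g * x ^ j * g⁻¹ = y ^ j := by
    intro j; rw [← hg, conj_pow]
  obtain ⟨h1, hh1, hh1x⟩ := fusion_p hD hhom hpπ _ (zpowers (x ^ a)) rfl (by rwa [zpowers_le]) hU g (by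
    rw [cj_le_iff]
    rintro _ ⟨j, rfl⟩
    rw [← conj_zpow, hgx]
    exact zpow_mem (pow_mem hy _) _)
  have hh1a := hh1x _ (mem_zpowers _)
  rw [hgx] at hh1a
  set u := x ^ a with hu
  set C := centralizer ({u} : Set G) with hC
  set g1 := h1⁻¹ * g with hg1
  have hg1C : g1 ∈ C := by
    rw [hC, mem_centralizer_singleton_iff]
    calc g1 * u = h1⁻¹ * (g * x ^ a * g⁻¹) * g := by rw [hg1, hu]; group
      _ = h1⁻¹ * (h1 * u * h1⁻¹) * g := by rw [hgx, hh1a]
      _ = u * g1 := by rw [hg1]; group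
  have hxC : x ^ b ∈ C := by
    rw [hC, mem_centralizer_singleton_iff, hu, ← pow_add, ← pow_add, add_comm]
  set y1 := h1⁻¹ * y ^ b * h1 with hy1
  have hy1g : y1 = g1 * x ^ b * g1⁻¹ := by
    rw [hy1, ← hgx, hg1]; group
  have hy1C : y1 ∈ C := by
    rw [hy1g]; exact mul_mem (mul_mem hg1C hxC) (inv_mem hg1C)
  have hy1H : y1 ∈ H := mul_mem (mul_mem (inv_mem hh1) (pow_mem hy _)) hh1
  obtain ⟨h2, hh2, hh2x⟩ := ih (orderOf (x ^ b)) (lt_of_le_of_lt (Nat.le_of_dvd hm0 hxb) hmn) C π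
    (H.subgroupOf C) (dh_centralizer hD hhom hpπ hxaH hxa) (homE_sub hhom C) ⟨x ^ b, hxC⟩
    (mem_subgroupOf.mpr (pow_mem hx _)) (by rw [← Subgroup.orderOf_mk _ hxC]) ⟨y1, hy1C⟩ (mem_subgroupOf.mpr hy1H)
    (isConj_iff.mpr ⟨⟨g1, hg1C⟩, Subtype.ext hy1g.symm⟩)
  have hh2x' : (h2 : G) * x ^ b * (h2 : G)⁻¹ = y1 := congrArg Subtype.val hh2x
  have hh2u : (h2 : G) * u = u * h2 := mem_centralizer_singleton_iff.mp h2.2
  refine ⟨h1 * h2, mul_mem hh1 (mem_subgroupOf.mp hh2), ?_⟩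
  have hx' : u * x ^ b = x := hxab x hn
  calc h1 * h2 * x * (h1 * h2)⁻¹ = h1 * h2 * (u * x ^ b) * (h1 * h2)⁻¹ := by rw [hx']
    _ = h1 * ((h2 : G) * u * (h2 : G)⁻¹) * h1⁻¹ * (h1 * ((h2 : G) * x ^ b * (h2 : G)⁻¹) * h1⁻¹) := by group
    _ = y ^ a * y ^ b := by
        have e1 : h1 * ((h2 : G) * u * (h2 : G)⁻¹) * h1⁻¹ = y ^ a := by
          rw [hh2u, mul_inv_cancel_right, hh1a]
        have e2 : h1 * ((h2 : G) * x ^ b * (h2 : G)⁻¹) * h1⁻¹ = y ^ b := by
          rw [hh2x', hy1]; group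
        rw [e1, e2]
    _ = y := hxab y hyn

/-- `p`-part of the order -/
theorem DH.not_dvd_index [Finite G] {π : Set ℕ} {H : Subgroup G} (hD : DH π H) {p : ℕ} (hp : p.Prime) (hpπ : p ∈ π) :
    ¬ p ∣ H.index := by
  haveI : Fact p.Prime := ⟨hp⟩
  obtain ⟨P⟩ : Nonempty (Sylow p G) := inferInstance
  obtain ⟨g, hg⟩ := hD.emb P (pi_of_pGroup hpπ P.2)
  intro h
  apply P.not_dvd_index
  have h1 : H.index ∣ (cj g (P : Subgroup G)).index := Subgroup.index_dvd_of_le hg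
  have h2 : (cj g (P : Subgroup G)).index = (P : Subgroup G).index := by
    have e1 := Subgroup.card_mul_index (cj g (P : Subgroup G))
    have e2 := Subgroup.card_mul_index (P : Subgroup G)
    rw [card_cj, ← e2] at e1
    exact Nat.eq_of_mul_eq_mul_left Nat.card_pos e1
  rw [h2] at h1
  exact h.trans h1

theorem homE_of {π : Set ℕ} [Finite G] (hhom : (∀ H : Subgroup G, H ≠ ⊥ → (∀ p : ℕ, p.Prime → p ∣ Nat.card ↥H → p ∈ π) →
        ∀ p : ℕ, p.Prime → p ∣ (Subgroup.centralizer (H : Set G)).relIndex (Subgroup.normalizer (H : Set G)) → p ∈ π)) :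
    HomE π G := by
  intro K hK q hq hqπ x hx ⟨k, hk⟩
  rcases eq_or_ne K ⊥ with rfl | hKb
  · rw [mem_centralizer_iff]
    intro y hy
    have : y = 1 := by simpa using hy
    subst this; simp
  have hCN : (centralizer (K : Set G)) ≤ normalizer (K : Set G) := centralizer_le_normalizer _
  set C' := (centralizer (K : Set G)).subgroupOf (normalizer (K : Set G)) with hC'
  have hCn : C'.Normal := by
    constructor
    intro c hc x
    rw [hC', mem_subgroupOf] at hc ⊢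
    rw [mem_centralizer_iff] at hc ⊢
    intro q hq
    have h1 : (x : G)⁻¹ * q * x ∈ K := by
      have := (mem_normalizer_iff.mp (inv_mem x.2) q).mp hq
      simpa using this
    have h2 := hc _ h1
    show q * ((x : G) * c * (x : G)⁻¹) = (x : G) * c * (x : G)⁻¹ * q
    have h3 : q * ((x : G) * c * (x : G)⁻¹) = x * (((x : G)⁻¹ * q * x) * c) * (x : G)⁻¹ := by group
    rw [h3, h2]; group
  have h1 : orderOf ((QuotientGroup.mk (⟨x, hx⟩ : normalizer (K : Set G)) : _ ⧸ C')) = 1 := by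
    by_contra hne
    obtain ⟨r, hr, hrd⟩ := Nat.exists_prime_and_dvd hne
    have h2 : orderOf ((QuotientGroup.mk (⟨x, hx⟩ : normalizer (K : Set G)) : _ ⧸ C')) ∣ q ^ k := by
      rw [← hk, ← Subgroup.orderOf_mk x hx]
      exact orderOf_map_dvd (QuotientGroup.mk' C') _
    have h3 : r = q := (Nat.prime_dvd_prime_iff_eq hr hq).mp (hr.dvd_of_dvd_pow (hrd.trans h2))
    subst h3
    apply hqπ
    refine hhom K hKb hK r hr (hrd.trans ?_)
    have h4 := orderOf_dvd_natCard ((QuotientGroup.mk (⟨x, hx⟩ : normalizer (K : Set G)) : _ ⧸ C'))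
    exact h4
  rw [orderOf_eq_one_iff, QuotientGroup.eq_one_iff, hC', mem_subgroupOf] at h1
  exact h1

theorem dh_of [Finite G] {π : Set ℕ} (hD : Cfsg.IsDPiGroup π G) : ∃ H : Subgroup G, DH π H := by
  have hex : ∀ Y : Subgroup G, Cfsg.IsPiSubgroup π Y → ∃ M : Subgroup G, Y ≤ M ∧ Maximal (Cfsg.IsPiSubgroup π) M := by
    intro Y hY
    obtain ⟨M, hM1, hM2⟩ := Set.Finite.exists_le_maximal (Set.toFinite {K : Subgroup G | Cfsg.IsPiSubgroup π K}) hY
    exact ⟨M, hM1, hM2⟩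
  obtain ⟨H, -, hH⟩ := hex ⊥ (by
    intro p hp hd
    rw [card_bot] at hd
    have := Nat.le_of_dvd one_pos hd
    have := hp.two_le
    omega)
  refine ⟨H, hH.prop, ?_⟩
  intro Y hY
  obtain ⟨M, hYM, hM⟩ := hex Y hY
  obtain ⟨g, hg⟩ := hD M H hM hH
  exact ⟨g, by rw [hg]; exact cj_mono hYM⟩

end Cfsg.Agent.H29.DPi
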